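import Mathlib
import Cfsg.Agent.Lib.Helper69.BG40.Defs
import Cfsg.Agent.S1456
import Cfsg.Agent.Lib.Helper35.BG.Basic
import Cfsg.Agent.Lib.Helper35.BG.Hall

/-!
Team project S1440 (helper69): package `PKD` (helper11).
`M' ≤ F(M)` (landed S1456 in `↥M` with `E = ⟨x⟩`) and `F(M) = M_σ ⊔ O_{σ'}(F(M))`.
-/

set_option autoImplicit false

namespace Cfsg.Agent.Lib.Helper11.BG40

open Cfsg

universe u

theorem fittingSubgroup_eq_top_of_nilpotent {H : Type*} [Group H] [Group.IsNilpotent H] :
    Cfsg.fittingSubgroup H = ⊤ := by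
  rw [eq_top_iff]
  unfold Cfsg.fittingSubgroup
  exact le_sSup ⟨inferInstance, inferInstance⟩

theorem pkD : Cfsg.Agent.Lib.Helper69.BG40.PKD.{u} := by
  intro G _ _ hG h1439 M hM p x D hL hnil
  classical
  haveI : Fact p.Prime := ⟨hL.hp⟩
  haveI : Group.IsSolvable ↥M := Cfsg.Agent.Lib.Helper35.BG.isSolvable_of_ne_top hG hM.1
  have hodd : Odd (Nat.card ↥M) := Cfsg.Agent.Lib.Helper35.BG.odd_card_subgroup hG M
  constructor
  · obtain ⟨x', hx'F, hx'⟩ := hL.hxF
    have hE : Subgroup.zpowers x' ≤ Cfsg.fittingSubgroup ↥M := Subgroup.zpowers_le.mpr hx'F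
    have hx'o : orderOf x' = p := by
      rw [← hL.hxo, ← hx']
      exact (Subgroup.orderOf_coe x').symm
    have hEe : Cfsg.IsElementaryAbelian p (Subgroup.zpowers x') := by
      refine ⟨?_, ?_⟩
      · rw [Cfsg.Agent.Lib.Helper35.BG.isMulCommutative_subgroup_iff]
        intro a ha b hb
        obtain ⟨i, rfl⟩ := Subgroup.mem_zpowers_iff.mp ha
        obtain ⟨j, rfl⟩ := Subgroup.mem_zpowers_iff.mp hb
        exact (Commute.zpow_zpow (Commute.refl x') i j).eq
      · intro a ha
        obtain ⟨i, rfl⟩ := Subgroup.mem_zpowers_iff.mp ha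
        rw [← zpow_natCast, ← zpow_mul, mul_comm, zpow_mul, zpow_natCast, ← hx'o,
          pow_orderOf_eq_one, one_zpow]
    have hr : Cfsg.RankLE 2 ↥(Cfsg.fittingSubgroup ↥M ⊓
        Subgroup.centralizer ((Subgroup.zpowers x' : Subgroup ↥M) : Set ↥M)) := by
      intro q hq A hAc hAe
      set f : ↥(Cfsg.fittingSubgroup ↥M ⊓
          Subgroup.centralizer ((Subgroup.zpowers x' : Subgroup ↥M) : Set ↥M)) →* G :=
        M.subtype.comp (Subgroup.subtype _) with hf
      have hfinj : Function.Injective f :=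
        (Subgroup.subtype_injective M).comp (Subgroup.subtype_injective _)
      have hcard : Nat.card ↥(A.map f) = Nat.card ↥A := Subgroup.card_map_of_injective hfinj
      rw [← hcard]
      apply hL.hrk q hq (A.map f)
      · rintro _ ⟨a, ha, rfl⟩
        apply hL.hCD
        refine Subgroup.mem_inf.mpr ⟨(a : ↥M).2, ?_⟩
        rw [Subgroup.mem_centralizer_iff]
        intro h hh
        rw [Set.mem_singleton_iff] at hh
        have h1 := Subgroup.mem_centralizer_iff.mp (Subgroup.mem_inf.mp a.2).2 x'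
          (Subgroup.mem_zpowers x')
        have h2 := congrArg (Subtype.val : ↥M → G) h1
        rw [hh, ← hx']
        exact h2
      · refine ⟨?_, ?_⟩
        · rw [Cfsg.Agent.Lib.Helper35.BG.isMulCommutative_subgroup_iff]
          rintro _ ⟨a, ha, rfl⟩ _ ⟨b, hb, rfl⟩
          have h1 : a * b = b * a :=
            (Cfsg.Agent.Lib.Helper35.BG.isMulCommutative_subgroup_iff.mp hAc) a ha b hb
          rw [← map_mul, ← map_mul, h1]
        · rintro _ ⟨a, ha, rfl⟩
          rw [← map_pow, hAe a ha, map_one]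
    have h1 := Cfsg.Agent.S1456.result (G := ↥M) hodd p (Subgroup.zpowers x') hE hEe hr
    rw [← Subgroup.map_subtype_commutator]
    exact Subgroup.map_mono h1
  · have h3 := (h1439 M hM).2.2
    have e : fittingOf (sigmaCore M) = sigmaCore M := by
      unfold fittingOf
      rw [fittingSubgroup_eq_top_of_nilpotent, ← MonoidHom.range_eq_map, Subgroup.range_subtype]
    rw [e] at h3
    exact h3

end Cfsg.Agent.Lib.Helper11.BG40
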